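import Cfsg.Agent.Lib.Blk89.NoTwoP

/-!
# S4745, no `p`-defect-zero branch: basic consequences

Setting: `p` odd, centralizers of nontrivial `p`-elements odd, `G` faithful and transitive on a set of
size `p ^ r`, `r ≥ 1`, no irreducible character of `p`-defect zero.  All statements here are
consequences of `Blk89.NoTwoP`.

Paper proof:
* every involution inverts a Sylow `p`-subgroup (`exists_inverted`, `exists_sylow_of_inverted`,
  `inverts`), every Sylow is inverted by an involution, so Sylows are abelian, all involutions conjugate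
  (two involutions inverting `P` have product in `C(P)`, odd, then `isConj_of_odd_mul`).
* `P` is transitive on `Ω` (index argument), abelian + faithful gives regular: `P_α` fixes everything.
* hence point stabilizers are `p'`.  An involution `t` inverting `P` has exactly one fixed point
  (one exists as `|Ω|` is odd; if `t` fixes `α` and `v • α` with `v ∈ P` then `v⁻¹ • α = v • α`, so `v² = 1`).
* commuting involutions have the same fixed point; if `x y` has even order then the central involution
  of the dihedral group commutes with both.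
-/

set_option autoImplicit false
set_option linter.style.haveILetI false
set_option linter.unusedSectionVars false

namespace Cfsg.Agent.Lib.OddP.Basic

open Cfsg
open Cfsg.Agent.Lib.Blk89.NoTwoP

/-- The hypotheses of the no-defect-zero branch of S4745. -/
structure Ctx (p : ℕ) (G Ω : Type*) [Group G] [Finite G] [MulAction G Ω] : Prop where
  hp2 : p ≠ 2
  hC : OddCent p G
  htr : MulAction.IsPretransitive G Ω
  hΩ : ∃ r : ℕ, 1 ≤ r ∧ Nat.card Ω = p ^ r
  hpG : p ∣ Nat.card G
  h2G : 2 ∣ Nat.card G
  hno : ∀ χ : IrrCharacter G, (charDegree (χ : G → ℂ)).factorization p ≠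
    (Nat.card G).factorization p

variable {G Ω : Type*} [Group G] [Finite G] [MulAction G Ω] [FaithfulSMul G Ω] [Finite Ω]
  {p : ℕ} [Fact p.Prime]

/-- An involution inverts a Sylow `p`-subgroup. -/
theorem exists_sylow_inverted (c : Ctx p G Ω) {t : G} (ht : orderOf t = 2) :
    ∃ P : Sylow p G, ∀ a ∈ (P : Subgroup G), t * a * t⁻¹ = a⁻¹ := by
  obtain ⟨y, hy1, hyp, hinv⟩ := exists_inverted c.hC c.hno ht
  obtain ⟨P, hP⟩ := exists_sylow_of_inverted c.hC ht hy1 hyp hinv
  exact ⟨P, fun a ha => inverts c.hC ht P.isPGroup' hP ha⟩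

theorem exists_involution_normalizing (c : Ctx p G Ω) (P : Sylow p G) :
    ∃ t : G, orderOf t = 2 ∧ t ∈ Subgroup.normalizer ((P : Subgroup G) : Set G) := by
  haveI : Fact (Nat.Prime 2) := ⟨Nat.prime_two⟩
  obtain ⟨s, hs⟩ := exists_prime_orderOf_dvd_card' 2 c.h2G
  obtain ⟨t₀, ht₀, hN, -⟩ := exists_conj_mem_normalizer c.hC c.hno hs P
  exact ⟨t₀, ht₀, hN⟩

/-- Every Sylow `p`-subgroup is inverted by an involution. -/
theorem sylow_inverted (c : Ctx p G Ω) (P : Sylow p G) :
    ∃ t : G, orderOf t = 2 ∧ ∀ a ∈ (P : Subgroup G), t * a * t⁻¹ = a⁻¹ := by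
  obtain ⟨t₀, ht₀, hN⟩ := exists_involution_normalizing c P
  exact ⟨t₀, ht₀, fun a ha => inverts c.hC ht₀ P.isPGroup' hN ha⟩

/-- Sylow `p`-subgroups are abelian. -/
theorem sylow_comm (c : Ctx p G Ω) (P : Sylow p G) {a b : G} (ha : a ∈ (P : Subgroup G))
    (hb : b ∈ (P : Subgroup G)) : a * b = b * a := by
  obtain ⟨t₀, ht₀, hN⟩ := exists_involution_normalizing c P
  exact comm_of_normalized c.hC ht₀ P.isPGroup' hN ha hb

/-- All involutions are conjugate. -/
theorem all_conj (c : Ctx p G Ω) {s t : G} (hs : orderOf s = 2) (ht : orderOf t = 2) :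
    IsConj s t := by
  obtain ⟨P, hP⟩ := exists_sylow_inverted c hs
  obtain ⟨t₀, ht₀, hN, hconj⟩ := exists_conj_mem_normalizer c.hC c.hno ht P
  have hsI : s * s = 1 := by
    rw [← pow_two, ← hs]
    exact pow_orderOf_eq_one s
  have ht₀I : t₀ * t₀ = 1 := by
    rw [← pow_two, ← ht₀]
    exact pow_orderOf_eq_one t₀
  have hne : (P : Subgroup G) ≠ ⊥ := P.ne_bot_of_dvd_card c.hpG
  have hO := odd_centralizer c.hC P.isPGroup' hne
  have hmem : s * t₀ ∈ Subgroup.centralizer (((P : Subgroup G) : Subgroup G) : Set G) := by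
    rw [Subgroup.mem_centralizer_iff]
    intro a ha
    have h1 := inverts c.hC ht₀ P.isPGroup' hN ha
    have h2 := hP a ha
    have h3 : s * a⁻¹ * s⁻¹ = a := by
      have : s * a⁻¹ * s⁻¹ = (s * a * s⁻¹)⁻¹ := by group
      rw [this, h2, inv_inv]
    have h4 : s * t₀ * a * (s * t₀)⁻¹ = a := by
      calc s * t₀ * a * (s * t₀)⁻¹ = s * (t₀ * a * t₀⁻¹) * s⁻¹ := by group
        _ = a := by rw [h1, h3]
    calc a * (s * t₀) = (s * t₀ * a * (s * t₀)⁻¹) * (s * t₀) := by rw [h4]
      _ = s * t₀ * a := by group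
  have hod : Odd (orderOf (s * t₀)) := by
    have h2 : orderOf (⟨s * t₀, hmem⟩ : Subgroup.centralizer (((P : Subgroup G) : Subgroup G) : Set G)) =
        orderOf (s * t₀) := by
      rw [← Subgroup.orderOf_coe]
    rw [← h2]
    exact Odd.of_dvd_nat hO (orderOf_dvd_natCard _)
  exact (isConj_of_odd_mul hsI ht₀I hod).trans hconj.symm

/-- A Sylow `p`-subgroup is transitive on `Ω`. -/
theorem sylow_transitive (c : Ctx p G Ω) (P : Sylow p G) (α β : Ω) :
    ∃ g ∈ (P : Subgroup G), g • α = β := by
  classical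
  have hp : p.Prime := Fact.out
  obtain ⟨r, hr1, hr⟩ := c.hΩ
  haveI := c.htr
  set Q : Subgroup ↥(P : Subgroup G) := MulAction.stabilizer ↥(P : Subgroup G) α with hQ
  obtain ⟨a, ha⟩ := IsPGroup.iff_card.mp ((P.isPGroup').to_subgroup Q)
  have hH : (MulAction.stabilizer G α).index = p ^ r := by
    rw [MulAction.index_stabilizer_of_transitive, hr]
  have hcG : Nat.card G = p ^ r * Nat.card (MulAction.stabilizer G α) := by
    rw [← hH, Subgroup.index_mul_card]
  let f : Q →* MulAction.stabilizer G α :=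
    ((P : Subgroup G).subtype.comp Q.subtype).codRestrict (MulAction.stabilizer G α) (fun x => by
      have h0 : (x : ↥(P : Subgroup G)) • α = α := x.2
      exact h0)
  have hf : Function.Injective f := by
    intro x y hxy
    have : ((x : ↥(P : Subgroup G)) : G) = ((y : ↥(P : Subgroup G)) : G) :=
      congrArg (fun z : MulAction.stabilizer G α => (z : G)) hxy
    exact Subtype.ext (Subtype.ext this)
  have hdvdH : p ^ a ∣ Nat.card (MulAction.stabilizer G α) := by
    rw [← ha]
    exact Subgroup.card_dvd_of_injective f hf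
  have hdvdG : p ^ (r + a) ∣ Nat.card G := by
    rw [hcG, pow_add]
    exact mul_dvd_mul_left _ hdvdH
  have hle : r + a ≤ (Nat.card G).factorization p :=
    (hp.pow_dvd_iff_le_factorization Nat.card_pos.ne').mp hdvdG
  have hcP : Nat.card (P : Subgroup G) = p ^ (Nat.card G).factorization p := P.card_eq_multiplicity
  have hidx : Q.index * p ^ a = p ^ (Nat.card G).factorization p := by
    rw [← hcP, ← ha, mul_comm]
    exact Subgroup.card_mul_index Q
  have hidx2 : Q.index = p ^ ((Nat.card G).factorization p - a) := by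
    apply Nat.eq_of_mul_eq_mul_right (pow_pos hp.pos a)
    rw [hidx, ← pow_add]
    congr 1
    omega
  have horb : (MulAction.orbit ↥(P : Subgroup G) α).ncard = Q.index := by
    rw [hQ, MulAction.index_stabilizer]
  have hsub : MulAction.orbit ↥(P : Subgroup G) α = Set.univ := by
    apply Set.eq_of_subset_of_ncard_le (Set.subset_univ _)
    rw [Set.ncard_univ, hr, horb, hidx2]
    exact Nat.pow_le_pow_right hp.pos (by omega)
  have hβ : β ∈ MulAction.orbit ↥(P : Subgroup G) α := by
    rw [hsub]
    exact Set.mem_univ β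
  obtain ⟨g, hg⟩ := hβ
  exact ⟨g, g.2, hg⟩

/-- A Sylow `p`-subgroup acts freely on `Ω`. -/
theorem sylow_free (c : Ctx p G Ω) (P : Sylow p G) {g : G} (hg : g ∈ (P : Subgroup G)) {α : Ω}
    (h : g • α = α) : g = 1 := by
  apply FaithfulSMul.eq_of_smul_eq_smul (α := Ω)
  intro β
  obtain ⟨u, hu, rfl⟩ := sylow_transitive c P α β
  rw [smul_smul, sylow_comm c P hg hu, ← smul_smul, h, one_smul]

/-- Nontrivial `p`-elements have no fixed point. -/
theorem pElement_free (c : Ctx p G Ω) {g : G} (hg : ∃ k : ℕ, orderOf g = p ^ k) {α : Ω}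
    (h : g • α = α) : g = 1 := by
  obtain ⟨k, hk⟩ := hg
  have h1 : IsPGroup p (Subgroup.zpowers g) :=
    IsPGroup.iff_card.mpr ⟨k, by rw [Nat.card_zpowers, hk]⟩
  obtain ⟨Q, hQ⟩ := h1.exists_le_sylow
  exact sylow_free c Q (hQ (Subgroup.mem_zpowers g)) h

omit [Finite Ω] [FaithfulSMul G Ω] [MulAction G Ω] in
theorem eq_one_of_mul_self {g : G} (hp2 : p ≠ 2) (hg : ∃ k : ℕ, orderOf g = p ^ k) (h : g * g = 1) :
    g = 1 := by
  have hp : p.Prime := Fact.out
  obtain ⟨k, hk⟩ := hg
  have h1 : orderOf g ∣ 2 := orderOf_dvd_of_pow_eq_one (by rw [pow_two, h])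
  rw [hk] at h1
  have h2 : k = 0 := by
    by_contra hk0
    have h3 : p ∣ 2 := (dvd_pow_self p hk0).trans h1
    exact hp2 ((Nat.prime_dvd_prime_iff_eq hp Nat.prime_two).mp h3)
  rw [h2, pow_zero, orderOf_eq_one_iff] at hk
  exact hk

/-- An involution has exactly one fixed point. -/
theorem exists_unique_fixed (c : Ctx p G Ω) {t : G} (ht : orderOf t = 2) :
    ∃! α : Ω, t • α = α := by
  have hp : p.Prime := Fact.out
  obtain ⟨P, hP⟩ := exists_sylow_inverted c ht
  obtain ⟨r, hr1, hr⟩ := c.hΩ
  have hne : Nonempty Ω := by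
    have : 0 < Nat.card Ω := by
      rw [hr]
      exact pow_pos hp.pos r
    exact (Nat.card_pos_iff.mp this).1
  obtain ⟨α⟩ := hne
  have hconj : ∀ (v : G) (y : Ω), v ∈ (P : Subgroup G) → t • v • y = v⁻¹ • t • y := by
    intro v y hv
    rw [smul_smul, smul_smul]
    congr 1
    rw [← hP v hv]
    group
  have hex : ∃ β : Ω, t • β = β := by
    obtain ⟨h, hh, hhα⟩ := sylow_transitive c P α (t • α)
    obtain ⟨k, hk⟩ := orderOf_of_mem P.isPGroup' hh
    have hodd : Odd (orderOf h) := by
      rw [hk]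
      exact (hp.odd_of_ne_two c.hp2).pow
    obtain ⟨m, hm⟩ := hodd
    set d := h ^ (m + 1) with hd
    have hdP : d ∈ (P : Subgroup G) := Subgroup.pow_mem _ hh _
    have hdd : d * d = h := by
      rw [hd, ← pow_add]
      have h1 : m + 1 + (m + 1) = (2 * m + 1) + 1 := by ring
      rw [h1, pow_succ, ← hm, pow_orderOf_eq_one, one_mul]
    refine ⟨d • α, ?_⟩
    rw [hconj d α hdP, ← hhα, ← hdd, smul_smul]
    congr 1
    group
  obtain ⟨β, hβ⟩ := hex
  refine ⟨β, hβ, fun y hy => ?_⟩
  obtain ⟨v, hv, rfl⟩ := sylow_transitive c P β y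
  rw [hconj v β hv, hβ] at hy
  have h2 : (v * v) • β = β := by
    have h3 := congrArg (fun w => v • w) hy
    simp only [smul_smul, mul_inv_cancel, one_smul] at h3
    exact h3.symm
  have h3 := sylow_free c P (Subgroup.mul_mem _ hv hv) h2
  have h4 := eq_one_of_mul_self c.hp2 (orderOf_of_mem P.isPGroup' hv) h3
  rw [h4, one_smul]

/-- A fixed point of an involution is fixed by everything commuting with that involution. -/
theorem fixed_of_commute (c : Ctx p G Ω) {t g : G} (ht : orderOf t = 2) (hc : t * g = g * t)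
    {α : Ω} (hα : t • α = α) : g • α = α := by
  have h1 : t • (g • α) = g • α := by
    rw [smul_smul, hc, ← smul_smul, hα]
  exact (exists_unique_fixed c ht).unique h1 hα

/-- Involutions whose product has even order have the same fixed point. -/
theorem fixed_of_even (c : Ctx p G Ω) {x y : G} (hx : orderOf x = 2) (hy : orderOf y = 2)
    (he : Even (orderOf (x * y))) {α : Ω} (hα : x • α = α) : y • α = α := by
  have hxI : x * x = 1 := by
    rw [← pow_two, ← hx]
    exact pow_orderOf_eq_one x
  have hyI : y * y = 1 := by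
    rw [← pow_two, ← hy]
    exact pow_orderOf_eq_one y
  have hxinv : x⁻¹ = x := inv_eq_of_mul_eq_one_left hxI
  have hyinv : y⁻¹ = y := inv_eq_of_mul_eq_one_left hyI
  set w := x * y with hw
  obtain ⟨k, hk⟩ := he
  have hw0 : orderOf w ≠ 0 := (orderOf_pos w).ne'
  have hc2 : orderOf (w ^ k) = 2 := by
    have h1 : orderOf w / 2 = k := by omega
    have h2 := orderOf_pow_orderOf_div (x := w) (n := 2) hw0 (by omega)
    rwa [h1] at h2
  set d := w ^ k with hd
  have hdI : d * d = 1 := by
    rw [← pow_two, ← hc2]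
    exact pow_orderOf_eq_one d
  have hdinv : d⁻¹ = d := inv_eq_of_mul_eq_one_left hdI
  have hxw : x * w * x⁻¹ = w⁻¹ := by
    rw [hw, hxinv, mul_inv_rev, hxinv, hyinv]
    calc x * (x * y) * x = (x * x) * y * x := by group
      _ = y * x := by rw [hxI, one_mul]
  have hyw : y * w * y⁻¹ = w⁻¹ := by
    rw [hw, hyinv, mul_inv_rev, hxinv, hyinv]
    calc y * (x * y) * y = y * x * (y * y) := by group
      _ = y * x := by rw [hyI, mul_one]
  have hxd : x * d = d * x := by
    have h1 : x * d * x⁻¹ = d := by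
      rw [hd, ← conj_pow, hxw, inv_pow, ← hd, hdinv]
    calc x * d = (x * d * x⁻¹) * x := by group
      _ = d * x := by rw [h1]
  have hyd : y * d = d * y := by
    have h1 : y * d * y⁻¹ = d := by
      rw [hd, ← conj_pow, hyw, inv_pow, ← hd, hdinv]
    calc y * d = (y * d * y⁻¹) * y := by group
      _ = d * y := by rw [h1]
  have hdα : d • α = α := fixed_of_commute c hx hxd hα
  obtain ⟨β, hβ, -⟩ := exists_unique_fixed c hy
  have hdβ : d • β = β := fixed_of_commute c hy hyd hβ
  have hαβ : α = β := (exists_unique_fixed c hc2).unique hdα hdβ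
  rw [hαβ, hβ]

/-- Involutions with different fixed points have a product of odd order. -/
theorem odd_of_ne_fixed (c : Ctx p G Ω) {x y : G} (hx : orderOf x = 2) (hy : orderOf y = 2)
    {α β : Ω} (hxα : x • α = α) (hyβ : y • β = β) (hne : α ≠ β) : Odd (orderOf (x * y)) := by
  by_contra h
  rw [Nat.not_odd_iff_even] at h
  have h1 := fixed_of_even c hx hy h hxα
  exact hne ((exists_unique_fixed c hy).unique h1 hyβ)

end Cfsg.Agent.Lib.OddP.Basic
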