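import Cfsg.Agent.Lib.Blk89.Necklace

/-!
# S4745: the structure constant congruence

If `G` has no character of `p`-defect zero and `p ∤ |C(t)|`, then for all `z` the number of
`x` in the class of `t` with `x⁻¹ z` in the class of `t` (pairs `(x, y)` from the class with `x y = z`)
is divisible by `p`.

Paper: with `κ = |t^G|`, `|G| n(z) = κ² Σ_χ χ(t)² χ(z⁻¹) / χ(1)`  (use `Necklace.sum_clsInd` with `g = 1`
twice and `Necklace.sum_deg_mul`; the proof of `Necklace.card_neck_eq` is the template).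
Write `|G| = p^b D`, `κ = p^b κ'`, `p^(b-1) D = χ(1) q_χ` (no defect zero; as in `Necklace.dvd_card_neck`).
Then `D² n(z) = p κ'² A`, `A = Σ q_χ χ(t)² χ(z⁻¹)` an algebraic integer, so `p ∣ D² n(z)` by
`Char.Central.nat_dvd_of_isIntegral_div`, so `p ∣ n(z)`.
-/

set_option autoImplicit false
set_option linter.style.haveILetI false
set_option linter.unusedSectionVars false

namespace Cfsg.Agent.Lib.OddP.Pairs

open Cfsg Module
open Cfsg.Agent.Lib.Char.Basic Cfsg.Agent.Lib.Char.Ortho Cfsg.Agent.Lib.Char.Complete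
open Cfsg.Agent.Lib.Char.Degree Cfsg.Agent.Lib.Blk89.Basic Cfsg.Agent.Lib.Char.ClassSum
open Cfsg.Agent.Lib.Char.DefectZero Cfsg.Agent.Lib.Blk89.Necklace

/-- The character formula for the number of pairs. -/
theorem card_pairs_eq {G : Type*} [Group G] [Fintype G] [Fintype (IrrCharacter G)] (t z : G) :
    (Nat.card G : ℂ) * (Nat.card {x : G // IsConj t x ∧ IsConj t (x⁻¹ * z)} : ℂ) =
      ∑ χ : IrrCharacter G, (χ : G → ℂ) 1 *
        ((((Nat.card {x : G // IsConj t x} : ℂ) * (χ : G → ℂ) t / (χ : G → ℂ) 1) ^ 2) *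
          (χ : G → ℂ) z⁻¹) := by
  classical
  set I := clsInd t (1 : G) with hI
  have hIval : ∀ y, I y = if IsConj t y then 1 else 0 := by
    intro y
    simp [hI, clsInd]
  have hcount : (Nat.card {x : G // IsConj t x ∧ IsConj t (x⁻¹ * z)} : ℂ) =
      ∑ x, ∑ y, I x * I y * (if x * y * z⁻¹ = 1 then 1 else 0) := by
    have h1 : Nat.card {x : G // IsConj t x ∧ IsConj t (x⁻¹ * z)} =
        (Finset.univ.filter (fun x : G => IsConj t x ∧ IsConj t (x⁻¹ * z))).card := by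
      rw [Nat.card_eq_fintype_card, Fintype.card_subtype]
    rw [h1, Finset.card_filter]
    push_cast
    refine Finset.sum_congr rfl fun x _ => ?_
    rw [Finset.sum_eq_single (x⁻¹ * z)]
    · have h2 : x * (x⁻¹ * z) * z⁻¹ = 1 := by group
      rw [if_pos h2, hIval, hIval]
      by_cases h3 : IsConj t x
      · by_cases h4 : IsConj t (x⁻¹ * z)
        · rw [if_pos ⟨h3, h4⟩, if_pos h3, if_pos h4]
          ring
        · rw [if_neg (fun h => h4 h.2), if_neg h4]
          ring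
      · rw [if_neg (fun h => h3 h.1), if_neg h3]
        ring
    · intro y _ hy
      have h2 : x * y * z⁻¹ ≠ 1 := by
        intro h
        apply hy
        have h3 : x * y = z := by
          rw [mul_inv_eq_one] at h
          exact h
        rw [← h3]
        group
      rw [if_neg h2, mul_zero]
    · intro h
      exact absurd (Finset.mem_univ _) h
  have hchar : ∀ χ : IrrCharacter G, ∑ x, ∑ y, I x * I y * (χ : G → ℂ) (z⁻¹ * (x * y)) =
      ((Nat.card {x : G // IsConj t x} : ℂ) * (χ : G → ℂ) t / (χ : G → ℂ) 1) ^ 2 *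
        (χ : G → ℂ) z⁻¹ := by
    intro χ
    have h1 : ∀ b : G, ∑ y, I y * (χ : G → ℂ) (b * y) =
        ((Nat.card {x : G // IsConj t x} : ℂ) * (χ : G → ℂ) t / (χ : G → ℂ) 1) * (χ : G → ℂ) b := by
      intro b
      have := sum_clsInd χ.2 t (1 : G) b
      simpa using this
    have h2 : ∀ x : G, ∑ y, I x * I y * (χ : G → ℂ) (z⁻¹ * (x * y)) =
        ((Nat.card {x : G // IsConj t x} : ℂ) * (χ : G → ℂ) t / (χ : G → ℂ) 1) *
          (I x * (χ : G → ℂ) (z⁻¹ * x)) := by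
      intro x
      have h3 := h1 (z⁻¹ * x)
      calc ∑ y, I x * I y * (χ : G → ℂ) (z⁻¹ * (x * y))
          = I x * ∑ y, I y * (χ : G → ℂ) (z⁻¹ * x * y) := by
            rw [Finset.mul_sum]
            refine Finset.sum_congr rfl fun y _ => ?_
            rw [mul_assoc (z⁻¹) x y, mul_assoc]
        _ = _ := by rw [h3]; ring
    simp_rw [h2]
    rw [← Finset.mul_sum, h1 z⁻¹]
    ring
  rw [hcount, Finset.mul_sum]
  have h5 : ∀ x : G, (Nat.card G : ℂ) * ∑ y, I x * I y * (if x * y * z⁻¹ = 1 then 1 else 0) =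
      ∑ χ : IrrCharacter G, (χ : G → ℂ) 1 * ∑ y, I x * I y * (χ : G → ℂ) (z⁻¹ * (x * y)) := by
    intro x
    simp_rw [Finset.mul_sum]
    rw [Finset.sum_comm]
    refine Finset.sum_congr rfl fun y _ => ?_
    have h6 := sum_deg_mul (G := G) (x * y * z⁻¹)
    have h7 : ∑ χ : IrrCharacter G, (χ : G → ℂ) 1 * (I x * I y * (χ : G → ℂ) (z⁻¹ * (x * y))) =
        I x * I y * ∑ χ : IrrCharacter G, (χ : G → ℂ) 1 * (χ : G → ℂ) (x * y * z⁻¹) := by
      rw [Finset.mul_sum]
      refine Finset.sum_congr rfl fun χ _ => ?_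
      rw [char_mul_comm (isCharacter_of_isIrrCharacter χ.2) z⁻¹ (x * y)]
      ring
    rw [h7, h6]
    ring
  simp_rw [h5]
  rw [Finset.sum_comm]
  refine Finset.sum_congr rfl fun χ _ => ?_
  rw [← Finset.mul_sum, hchar]

theorem dvd_card_pairs {G : Type*} [Group G] [Finite G] {p : ℕ} [Fact p.Prime]
    (hno : ∀ χ : IrrCharacter G, (charDegree (χ : G → ℂ)).factorization p ≠
      (Nat.card G).factorization p) (t z : G)
    (hC : ¬ p ∣ Nat.card (Subgroup.centralizer ({t} : Set G))) :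
    p ∣ Nat.card {x : G // IsConj t x ∧ IsConj t (x⁻¹ * z)} := by
  classical
  have hp : p.Prime := Fact.out
  letI : Fintype G := Fintype.ofFinite G
  have : Finite (IrrCharacter G) := finite_irrCharacter
  have := Fintype.ofFinite (IrrCharacter G)
  set b := (Nat.card G).factorization p with hb
  set D := ordCompl[p] (Nat.card G) with hD
  have hGD : Nat.card G = p ^ b * D := (Nat.ordProj_mul_ordCompl_eq_self _ p).symm
  have hDp : ¬ p ∣ D := Nat.not_dvd_ordCompl hp Nat.card_pos.ne'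
  have hb0 : b ≠ 0 := by
    intro h0
    apply hno (oneIrr G)
    rw [h0]
    have : charDegree (((oneIrr G : IrrCharacter G)) : G → ℂ) = 1 := by
      apply charDegree_eq_of_eq_natCast
      simp
    rw [this]
    simp
  set κ := Nat.card {x : G // IsConj t x} with hκ
  have hκC := card_class_mul_card_centralizer t
  have hκ0 : κ ≠ 0 := by
    have : Nonempty {x : G // IsConj t x} := ⟨⟨t, IsConj.refl t⟩⟩
    exact Nat.card_pos.ne'
  have hCne : Nat.card (Subgroup.centralizer ({t} : Set G)) ≠ 0 := Nat.card_pos.ne'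
  have hvκ : κ.factorization p = b := by
    rw [hb, ← hκC, Nat.factorization_mul hκ0 hCne, Finsupp.add_apply,
      Nat.factorization_eq_zero_of_not_dvd hC, add_zero]
  set κ' := ordCompl[p] κ with hκ'
  have hκ2 : κ = p ^ b * κ' := by
    rw [← hvκ]
    exact (Nat.ordProj_mul_ordCompl_eq_self κ p).symm
  have hq : ∀ χ : IrrCharacter G, ∃ q : ℕ, p ^ (b - 1) * D = charDegree (χ : G → ℂ) * q := by
    intro χ
    have h1 := charDegree_dvd_card χ.2
    have h2 := Nat.ordProj_mul_ordCompl_eq_self (charDegree (χ : G → ℂ)) p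
    have h0 : charDegree (χ : G → ℂ) ≠ 0 := (charDegree_pos χ.2).ne'
    have h3 : (charDegree (χ : G → ℂ)).factorization p ≤ b := by
      have := (Nat.factorization_le_iff_dvd h0 Nat.card_pos.ne').mpr h1
      exact this p
    have h3' : (charDegree (χ : G → ℂ)).factorization p ≤ b - 1 := by
      have := hno χ
      omega
    have h4 : ordCompl[p] (charDegree (χ : G → ℂ)) ∣ D := Nat.ordCompl_dvd_ordCompl_of_dvd h1 p
    rw [← h2]
    exact mul_dvd_mul (pow_dvd_pow _ h3') h4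
  choose q hq using hq
  set A : ℂ := ∑ χ : IrrCharacter G, ((κ' : ℂ) ^ 2 * (q χ : ℂ) * (χ : G → ℂ) t ^ 2 * (χ : G → ℂ) z⁻¹) with hA
  have hAint : IsIntegral ℤ A := by
    apply IsIntegral.sum
    intro χ _
    refine IsIntegral.mul (IsIntegral.mul (IsIntegral.mul (IsIntegral.pow (natCast_integral _) 2)
      (natCast_integral _)) (IsIntegral.pow (irr_integral χ t) 2)) (irr_integral χ _)
  set N := Nat.card {x : G // IsConj t x ∧ IsConj t (x⁻¹ * z)} with hN
  have hpne : (p : ℂ) ≠ 0 := Nat.cast_ne_zero.mpr hp.ne_zero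
  have hDne : (D : ℂ) ≠ 0 := by
    intro h
    have : D = 0 := by exact_mod_cast h
    rw [this] at hDp
    exact hDp (dvd_zero p)
  have hmain : (D : ℂ) ^ 2 * (N : ℂ) = (p : ℂ) * A := by
    have h1 := card_pairs_eq (G := G) t z
    have hpb : (p : ℂ) ^ b = (p : ℂ) * (p : ℂ) ^ (b - 1) := by
      rw [← pow_succ']
      congr 1
      omega
    have hGc : (Nat.card G : ℂ) = (p : ℂ) ^ b * D := by
      rw [hGD]
      push_cast
      rfl
    have hκc : (κ : ℂ) = (p : ℂ) ^ b * κ' := by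
      rw [hκ2]
      push_cast
      rfl
    have h2 : ∀ χ : IrrCharacter G, (χ : G → ℂ) 1 *
        (((κ : ℂ) * (χ : G → ℂ) t / (χ : G → ℂ) 1) ^ 2 * (χ : G → ℂ) z⁻¹) * (D : ℂ) =
        ((p : ℂ) ^ b * (p : ℂ)) * ((κ' : ℂ) ^ 2 * (q χ : ℂ) * (χ : G → ℂ) t ^ 2 * (χ : G → ℂ) z⁻¹) := by
      intro χ
      have he := irr_one_ne_zero χ.2
      have hqc : (p : ℂ) ^ (b - 1) * D = (χ : G → ℂ) 1 * q χ := by
        rw [← charDegree_natCast (isCharacter_of_isIrrCharacter χ.2)]
        exact_mod_cast hq χ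
      have hD' : (D : ℂ) = (χ : G → ℂ) 1 * q χ / (p : ℂ) ^ (b - 1) := by
        rw [← hqc]
        field_simp
      have hp1 : (p : ℂ) ^ (b - 1) ≠ 0 := pow_ne_zero _ hpne
      rw [hκc]
      have h3 : (p : ℂ) ^ b * (p : ℂ) ^ b * (D : ℂ) = (p : ℂ) ^ b * (p : ℂ) * ((χ : G → ℂ) 1 * q χ) := by
        rw [← hqc, hpb]
        ring
      calc (χ : G → ℂ) 1 * ((((p : ℂ) ^ b * κ') * (χ : G → ℂ) t / (χ : G → ℂ) 1) ^ 2 * (χ : G → ℂ) z⁻¹) * (D : ℂ)
          = ((p : ℂ) ^ b * (p : ℂ) ^ b * (D : ℂ)) * ((κ' : ℂ) ^ 2 * (χ : G → ℂ) t ^ 2 * (χ : G → ℂ) z⁻¹) / (χ : G → ℂ) 1 := by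
            field_simp
        _ = ((p : ℂ) ^ b * (p : ℂ) * ((χ : G → ℂ) 1 * q χ)) * ((κ' : ℂ) ^ 2 * (χ : G → ℂ) t ^ 2 * (χ : G → ℂ) z⁻¹) / (χ : G → ℂ) 1 := by
            rw [h3]
        _ = _ := by
            field_simp
    have h4 : ((p : ℂ) ^ b * D) * (N : ℂ) * (D : ℂ) ^ 2 = ((p : ℂ) ^ b * (p : ℂ)) * (D : ℂ) * A := by
      have h5 : _ * (D : ℂ) = _ * (D : ℂ) := congrArg (· * (D : ℂ)) h1
      rw [hGc, Finset.sum_mul] at h5
      have h6 : ∑ χ : IrrCharacter G, (χ : G → ℂ) 1 *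
          (((κ : ℂ) * (χ : G → ℂ) t / (χ : G → ℂ) 1) ^ 2 * (χ : G → ℂ) z⁻¹) * (D : ℂ) =
          ((p : ℂ) ^ b * (p : ℂ)) * A := by
        rw [hA, Finset.mul_sum]
        exact Finset.sum_congr rfl fun χ _ => h2 χ
      rw [h6] at h5
      rw [show ((p : ℂ) ^ b * (p : ℂ)) * (D : ℂ) * A = ((p : ℂ) ^ b * (p : ℂ)) * A * (D : ℂ) by ring, ← h5]
      ring
    have hpb0 : (p : ℂ) ^ b ≠ 0 := pow_ne_zero _ hpne
    apply mul_left_cancel₀ hpb0
    apply mul_left_cancel₀ hDne
    linear_combination h4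
  have hfinal : IsIntegral ℤ (((D ^ 2 * N : ℕ) : ℂ) / (p : ℂ)) := by
    have h1 : ((D ^ 2 * N : ℕ) : ℂ) / (p : ℂ) = A := by
      rw [div_eq_iff hpne]
      push_cast
      rw [hmain]
      ring
    rw [h1]
    exact hAint
  have hdvd := Cfsg.Agent.Lib.Char.Central.nat_dvd_of_isIntegral_div hp.ne_zero hfinal
  rcases (Nat.Prime.dvd_mul hp).mp hdvd with h | h
  · exact absurd (hp.dvd_of_dvd_pow h) hDp
  · exact h

end Cfsg.Agent.Lib.OddP.Pairs
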